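import Cfsg.Agent.H904.L34.Last_m3
import Cfsg.Agent.H436.L34.Nine_m3
import Cfsg.Agent.Prune
set_option linter.all false
prune_inst 0x7ffffdfbfffffbffffff7ffffffffffdffbfbffff6fffdcbffeceffffbffff9acfefffbf8febbbfe5ff6eabddcfffbd3ffffffffea6ffc7ffffdfff75ffbffdfffffbd0971ff9cbe0fbc6ffff3f07fce7f3fffffffffffffffffffffffffffbeffffffffffff
open scoped Cfsg.Agent.FastGrp

-- part: H616/L34/Quad
section
/-!
# S5917, row M9 (helper616): every `SL₃(4)`-invariant bilinear form on the exterior square of the module of hermitian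
matrices vanishes
-/

set_option autoImplicit false
set_option linter.unusedSectionVars false

namespace Cfsg.Agent.H616.L34

open Matrix Cfsg.Agent.H691.L34 Cfsg.Agent.H204.L34

/-- fields with at most four elements of characteristic two -/
class Four (F : Type) [Field F] : Prop where
  two : (2 : F) = 0
  four : ∀ x : F, x ^ 4 = x

section

variable {F : Type} [Field F] [Four F]

theorem two' : (2 : F) = 0 := Four.two
theorem four' (x : F) : x ^ 4 = x := Four.four x

theorem neg_eq (x : F) : -x = x := by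
  have h := two' (F := F)
  linear_combination (-x) * h

theorem sq_add (x y : F) : (x + y) ^ 2 = x ^ 2 + y ^ 2 := by
  have h := two' (F := F)
  linear_combination (x * y) * h

theorem sq_sq (x : F) : (x ^ 2) ^ 2 = x := by
  rw [← pow_mul]; exact four' x

theorem tq (s : F) : (s + s ^ 2) ^ 2 = s + s ^ 2 := by
  rw [sq_add, sq_sq, add_comm]

variable (F) in
/-- the additive group of hermitian matrices -/
def HS : AddSubgroup (M3 F) where
  carrier := {X | HF X}
  zero_mem' := by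
    ext i j
    simp [ct]
  add_mem' := by
    intro X Y hX hY
    ext i j
    show ((X + Y) j i) ^ 2 = (X + Y) i j
    rw [Matrix.add_apply, Matrix.add_apply, sq_add, HF_apply hX, HF_apply hY]
  neg_mem' := by
    intro X hX
    ext i j
    show ((-X) j i) ^ 2 = (-X) i j
    rw [Matrix.neg_apply, Matrix.neg_apply, neg_eq, neg_eq, HF_apply hX]

/-- the action on hermitian matrices -/
def ac (g : G3 F) : HS F →+ HS F := AddMonoidHom.mk' (fun X => ⟨hact g X.1, hact_HF two' four' X.2 g⟩) (by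
  intro X Y
  apply Subtype.ext
  show hact g (X.1 + Y.1) = hact g X.1 + hact g Y.1
  rw [hact, hact, hact, Matrix.mul_add, Matrix.add_mul])

theorem ac_val (g : G3 F) (X : HS F) : (ac g X).1 = hact g X.1 := rfl

theorem ac_mul (g h : G3 F) (X : HS F) : ac g (ac h X) = ac (g * h) X :=
  Subtype.ext (hact_mul two' g h X.1).symm

theorem ac_one (X : HS F) : ac (1 : G3 F) X = X := Subtype.ext (hact_one X.1)

theorem ac_inv (g : G3 F) (X : HS F) : ac g (ac g⁻¹ X) = X := by
  rw [ac_mul, mul_inv_cancel, ac_one]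

private theorem m3_ext {F : Type} {A B : M3 F} (h00 : A 0 0 = B 0 0) (h01 : A 0 1 = B 0 1) (h02 : A 0 2 = B 0 2)
    (h10 : A 1 0 = B 1 0) (h11 : A 1 1 = B 1 1) (h12 : A 1 2 = B 1 2) (h20 : A 2 0 = B 2 0) (h21 : A 2 1 = B 2 1)
    (h22 : A 2 2 = B 2 2) : A = B := by
  ext i j
  fin_cases i <;> fin_cases j
  exacts [h00, h01, h02, h10, h11, h12, h20, h21, h22]

private theorem lit_eq {F : Type} {a b c d e f g h k a' b' c' d' e' f' g' h' k' : F} (h1 : a = a') (h2 : b = b') (h3 : c = c') (h4 : d = d')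
    (h5 : e = e') (h6 : f = f') (h7 : g = g') (h8 : h = h') (h9 : k = k') :
    (!![a, b, c; d, e, f; g, h, k] : M3 F) = !![a', b', c'; d', e', f'; g', h', k'] := by
  rw [h1, h2, h3, h4, h5, h6, h7, h8, h9]

private theorem lit_add {F : Type} [Field F] (a b c d e f g h k a' b' c' d' e' f' g' h' k' : F) :
    (!![a, b, c; d, e, f; g, h, k] : M3 F) + !![a', b', c'; d', e', f'; g', h', k'] =
      !![a + a', b + b', c + c'; d + d', e + e', f + f'; g + g', h + h', k + k'] :=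
  m3_ext rfl rfl rfl rfl rfl rfl rfl rfl rfl

private theorem lit_HF {F : Type} [Field F] {a b c d e f g h k : F} (h1 : a ^ 2 = a) (h2 : d ^ 2 = b) (h3 : g ^ 2 = c) (h4 : b ^ 2 = d)
    (h5 : e ^ 2 = e) (h6 : h ^ 2 = f) (h7 : c ^ 2 = g) (h8 : f ^ 2 = h) (h9 : k ^ 2 = k) :
    HF (!![a, b, c; d, e, f; g, h, k] : M3 F) :=
  m3_ext h1 h2 h3 h4 h5 h6 h7 h8 h9

private theorem lit_act {F : Type} [Field F] (a b c d e f g h k a' b' c' d' e' f' g' h' k' : F) (hd) :
    hact (⟨!![a, b, c; d, e, f; g, h, k], hd⟩ : G3 F) !![a', b', c'; d', e', f'; g', h', k'] =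
      !![(a * a' + b * d' + c * g') * a ^ 2 + (a * b' + b * e' + c * h') * b ^ 2 + (a * c' + b * f' + c * k') * c ^ 2,
        (a * a' + b * d' + c * g') * d ^ 2 + (a * b' + b * e' + c * h') * e ^ 2 + (a * c' + b * f' + c * k') * f ^ 2,
        (a * a' + b * d' + c * g') * g ^ 2 + (a * b' + b * e' + c * h') * h ^ 2 + (a * c' + b * f' + c * k') * k ^ 2;
        (d * a' + e * d' + f * g') * a ^ 2 + (d * b' + e * e' + f * h') * b ^ 2 + (d * c' + e * f' + f * k') * c ^ 2,
        (d * a' + e * d' + f * g') * d ^ 2 + (d * b' + e * e' + f * h') * e ^ 2 + (d * c' + e * f' + f * k') * f ^ 2,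
        (d * a' + e * d' + f * g') * g ^ 2 + (d * b' + e * e' + f * h') * h ^ 2 + (d * c' + e * f' + f * k') * k ^ 2;
        (g * a' + h * d' + k * g') * a ^ 2 + (g * b' + h * e' + k * h') * b ^ 2 + (g * c' + h * f' + k * k') * c ^ 2,
        (g * a' + h * d' + k * g') * d ^ 2 + (g * b' + h * e' + k * h') * e ^ 2 + (g * c' + h * f' + k * k') * f ^ 2,
        (g * a' + h * d' + k * g') * g ^ 2 + (g * b' + h * e' + k * h') * h ^ 2 + (g * c' + h * f' + k * k') * k ^ 2] :=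
  m3_ext (hact_apply _ _ 0 0) (hact_apply _ _ 0 1) (hact_apply _ _ 0 2) (hact_apply _ _ 1 0) (hact_apply _ _ 1 1)
    (hact_apply _ _ 1 2) (hact_apply _ _ 2 0) (hact_apply _ _ 2 1) (hact_apply _ _ 2 2)

private theorem z2 {F : Type} [Field F] : (0 : F) ^ 2 = 0 := zero_pow two_ne_zero

private theorem q1 {F : Type} [Field F] (a : F) : a * 0 = 0 := mul_zero a
private theorem q2 {F : Type} [Field F] (a : F) : 0 * a = 0 := zero_mul a
private theorem q3 {F : Type} [Field F] (a : F) : a + 0 = a := add_zero a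
private theorem q4 {F : Type} [Field F] (a : F) : 0 + a = a := zero_add a
private theorem q5 {F : Type} [Field F] (a : F) : a * 1 = a := mul_one a
private theorem q6 {F : Type} [Field F] (a : F) : 1 * a = a := one_mul a
private theorem q7 {F : Type} [Field F] : (1 : F) ^ 2 = 1 := one_pow 2

private theorem z0 {F : Type} [Field F] : (0 : F) = 0 + 0 := (add_zero 0).symm

private theorem tadd (x y : F) : x + y + (x + y) ^ 2 = x + x ^ 2 + (y + y ^ 2) := by rw [sq_add]; ring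

def O12 : F →+ HS F := AddMonoidHom.mk' (fun y => ⟨!![0, y, 0; y ^ 2, 0, 0; 0, 0, 0],
    lit_HF z2 (sq_sq y) z2 rfl z2 z2 z2 z2 z2⟩)
  fun x y => Subtype.ext ((lit_eq z0 rfl z0 (sq_add x y) z0 z0 z0 z0 z0).trans (lit_add ..).symm)

def O13 : F →+ HS F := AddMonoidHom.mk' (fun y => ⟨!![0, 0, y; 0, 0, 0; y ^ 2, 0, 0],
    lit_HF z2 z2 (sq_sq y) z2 z2 z2 rfl z2 z2⟩)
  fun x y => Subtype.ext ((lit_eq z0 z0 rfl z0 z0 z0 (sq_add x y) z0 z0).trans (lit_add ..).symm)

def O23 : F →+ HS F := AddMonoidHom.mk' (fun y => ⟨!![0, 0, 0; 0, 0, y; 0, y ^ 2, 0],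
    lit_HF z2 z2 z2 z2 z2 (sq_sq y) z2 rfl z2⟩)
  fun x y => Subtype.ext ((lit_eq z0 z0 z0 z0 z0 rfl z0 (sq_add x y) z0).trans (lit_add ..).symm)

def T1 : F →+ HS F := AddMonoidHom.mk' (fun s => ⟨!![s + s ^ 2, 0, 0; 0, 0, 0; 0, 0, 0],
    lit_HF (tq s) z2 z2 z2 z2 z2 z2 z2 z2⟩)
  fun x y => Subtype.ext ((lit_eq (tadd x y) z0 z0 z0 z0 z0 z0 z0 z0).trans (lit_add ..).symm)

def T2 : F →+ HS F := AddMonoidHom.mk' (fun s => ⟨!![0, 0, 0; 0, s + s ^ 2, 0; 0, 0, 0],
    lit_HF z2 z2 z2 z2 (tq s) z2 z2 z2 z2⟩)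
  fun x y => Subtype.ext ((lit_eq z0 z0 z0 z0 (tadd x y) z0 z0 z0 z0).trans (lit_add ..).symm)

def T3 : F →+ HS F := AddMonoidHom.mk' (fun s => ⟨!![0, 0, 0; 0, 0, 0; 0, 0, s + s ^ 2],
    lit_HF z2 z2 z2 z2 z2 z2 z2 z2 (tq s)⟩)
  fun x y => Subtype.ext ((lit_eq z0 z0 z0 z0 z0 z0 z0 z0 (tadd x y)).trans (lit_add ..).symm)

theorem O12_val (y : F) : (O12 y).1 = !![0, y, 0; y ^ 2, 0, 0; 0, 0, 0] := rfl
theorem O13_val (y : F) : (O13 y).1 = !![0, 0, y; 0, 0, 0; y ^ 2, 0, 0] := rfl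
theorem O23_val (y : F) : (O23 y).1 = !![0, 0, 0; 0, 0, y; 0, y ^ 2, 0] := rfl
theorem T1_val (s : F) : (T1 s).1 = !![s + s ^ 2, 0, 0; 0, 0, 0; 0, 0, 0] := rfl
theorem T2_val (s : F) : (T2 s).1 = !![0, 0, 0; 0, s + s ^ 2, 0; 0, 0, 0] := rfl
theorem T3_val (s : F) : (T3 s).1 = !![0, 0, 0; 0, 0, 0; 0, 0, s + s ^ 2] := rfl

def u13 : G3 F := ⟨!![1, 0, 1; 0, 1, 0; 0, 0, 1], by simp [Matrix.det_fin_three]⟩
def u23 : G3 F := ⟨!![1, 0, 0; 0, 1, 1; 0, 0, 1], by simp [Matrix.det_fin_three]⟩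
def u12 : G3 F := ⟨!![1, 1, 0; 0, 1, 0; 0, 0, 1], by simp [Matrix.det_fin_three]⟩
def u21 : G3 F := ⟨!![1, 0, 0; 1, 1, 0; 0, 0, 1], by simp [Matrix.det_fin_three]⟩

macro "hm" : tactic => `(tactic| (
  apply Subtype.ext
  ext i j
  simp only [ac_val, hact_apply, AddSubgroup.coe_add, Matrix.add_apply, O12_val, O13_val, O23_val, T1_val, T2_val, T3_val]
  fin_cases i <;> fin_cases j <;> simp [u13, u23, u12, u21, tq, sq_sq, sq_add, ← pow_mul, four'] <;> try ring))

theorem a13_T3 (s : F) : ac u13 (T3 s) = T3 s + O13 (s + s ^ 2) + T1 s := by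
  apply Subtype.ext
  simp only [ac_val, AddSubgroup.coe_add, O12_val, O13_val, O23_val, T1_val, T2_val, T3_val, lit_add]
  refine (lit_act ..).trans ?_
  simp only [q1, q2, q3, q4, q5, q6, q7, z2, tq, sq_sq]
  all_goals (refine lit_eq ?_ ?_ ?_ ?_ ?_ ?_ ?_ ?_ ?_ <;> first | with_reducible rfl | ring1)
theorem a13_O13 (y : F) : ac u13 (O13 y) = O13 y + T1 y := by
  apply Subtype.ext
  simp only [ac_val, AddSubgroup.coe_add, O12_val, O13_val, O23_val, T1_val, T2_val, T3_val, lit_add]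
  refine (lit_act ..).trans ?_
  simp only [q1, q2, q3, q4, q5, q6, q7, z2, tq, sq_sq]
  all_goals (refine lit_eq ?_ ?_ ?_ ?_ ?_ ?_ ?_ ?_ ?_ <;> first | with_reducible rfl | ring1)
theorem a13_O23 (y : F) : ac u13 (O23 y) = O23 y + O12 (y ^ 2) := by
  apply Subtype.ext
  simp only [ac_val, AddSubgroup.coe_add, O12_val, O13_val, O23_val, T1_val, T2_val, T3_val, lit_add]
  refine (lit_act ..).trans ?_
  simp only [q1, q2, q3, q4, q5, q6, q7, z2, tq, sq_sq]
  all_goals (refine lit_eq ?_ ?_ ?_ ?_ ?_ ?_ ?_ ?_ ?_ <;> first | with_reducible rfl | ring1)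
theorem a13_O12 (y : F) : ac u13 (O12 y) = O12 y := by
  apply Subtype.ext
  simp only [ac_val, AddSubgroup.coe_add, O12_val, O13_val, O23_val, T1_val, T2_val, T3_val, lit_add]
  refine (lit_act ..).trans ?_
  simp only [q1, q2, q3, q4, q5, q6, q7, z2, tq, sq_sq]
  all_goals (refine lit_eq ?_ ?_ ?_ ?_ ?_ ?_ ?_ ?_ ?_ <;> first | with_reducible rfl | ring1)
theorem a13_T1 (y : F) : ac u13 (T1 y) = T1 y := by
  apply Subtype.ext
  simp only [ac_val, AddSubgroup.coe_add, O12_val, O13_val, O23_val, T1_val, T2_val, T3_val, lit_add]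
  refine (lit_act ..).trans ?_
  simp only [q1, q2, q3, q4, q5, q6, q7, z2, tq, sq_sq]
  all_goals (refine lit_eq ?_ ?_ ?_ ?_ ?_ ?_ ?_ ?_ ?_ <;> first | with_reducible rfl | ring1)
theorem a13_T2 (y : F) : ac u13 (T2 y) = T2 y := by
  apply Subtype.ext
  simp only [ac_val, AddSubgroup.coe_add, O12_val, O13_val, O23_val, T1_val, T2_val, T3_val, lit_add]
  refine (lit_act ..).trans ?_
  simp only [q1, q2, q3, q4, q5, q6, q7, z2, tq, sq_sq]
  all_goals (refine lit_eq ?_ ?_ ?_ ?_ ?_ ?_ ?_ ?_ ?_ <;> first | with_reducible rfl | ring1)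

theorem a23_T3 (s : F) : ac u23 (T3 s) = T3 s + O23 (s + s ^ 2) + T2 s := by
  apply Subtype.ext
  simp only [ac_val, AddSubgroup.coe_add, O12_val, O13_val, O23_val, T1_val, T2_val, T3_val, lit_add]
  refine (lit_act ..).trans ?_
  simp only [q1, q2, q3, q4, q5, q6, q7, z2, tq, sq_sq]
  all_goals (refine lit_eq ?_ ?_ ?_ ?_ ?_ ?_ ?_ ?_ ?_ <;> first | with_reducible rfl | ring1)
theorem a23_O23 (y : F) : ac u23 (O23 y) = O23 y + T2 y := by
  apply Subtype.ext
  simp only [ac_val, AddSubgroup.coe_add, O12_val, O13_val, O23_val, T1_val, T2_val, T3_val, lit_add]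
  refine (lit_act ..).trans ?_
  simp only [q1, q2, q3, q4, q5, q6, q7, z2, tq, sq_sq]
  all_goals (refine lit_eq ?_ ?_ ?_ ?_ ?_ ?_ ?_ ?_ ?_ <;> first | with_reducible rfl | ring1)
theorem a23_O13 (y : F) : ac u23 (O13 y) = O13 y + O12 y := by
  apply Subtype.ext
  simp only [ac_val, AddSubgroup.coe_add, O12_val, O13_val, O23_val, T1_val, T2_val, T3_val, lit_add]
  refine (lit_act ..).trans ?_
  simp only [q1, q2, q3, q4, q5, q6, q7, z2, tq, sq_sq]
  all_goals (refine lit_eq ?_ ?_ ?_ ?_ ?_ ?_ ?_ ?_ ?_ <;> first | with_reducible rfl | ring1)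
theorem a23_T1 (y : F) : ac u23 (T1 y) = T1 y := by
  apply Subtype.ext
  simp only [ac_val, AddSubgroup.coe_add, O12_val, O13_val, O23_val, T1_val, T2_val, T3_val, lit_add]
  refine (lit_act ..).trans ?_
  simp only [q1, q2, q3, q4, q5, q6, q7, z2, tq, sq_sq]
  all_goals (refine lit_eq ?_ ?_ ?_ ?_ ?_ ?_ ?_ ?_ ?_ <;> first | with_reducible rfl | ring1)
theorem a23_T2 (y : F) : ac u23 (T2 y) = T2 y := by
  apply Subtype.ext
  simp only [ac_val, AddSubgroup.coe_add, O12_val, O13_val, O23_val, T1_val, T2_val, T3_val, lit_add]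
  refine (lit_act ..).trans ?_
  simp only [q1, q2, q3, q4, q5, q6, q7, z2, tq, sq_sq]
  all_goals (refine lit_eq ?_ ?_ ?_ ?_ ?_ ?_ ?_ ?_ ?_ <;> first | with_reducible rfl | ring1)

theorem a12_T1 (s : F) : ac u12 (T1 s) = T1 s := by
  apply Subtype.ext
  simp only [ac_val, AddSubgroup.coe_add, O12_val, O13_val, O23_val, T1_val, T2_val, T3_val, lit_add]
  refine (lit_act ..).trans ?_
  simp only [q1, q2, q3, q4, q5, q6, q7, z2, tq, sq_sq]
  all_goals (refine lit_eq ?_ ?_ ?_ ?_ ?_ ?_ ?_ ?_ ?_ <;> first | with_reducible rfl | ring1)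
theorem a12_T3 (s : F) : ac u12 (T3 s) = T3 s := by
  apply Subtype.ext
  simp only [ac_val, AddSubgroup.coe_add, O12_val, O13_val, O23_val, T1_val, T2_val, T3_val, lit_add]
  refine (lit_act ..).trans ?_
  simp only [q1, q2, q3, q4, q5, q6, q7, z2, tq, sq_sq]
  all_goals (refine lit_eq ?_ ?_ ?_ ?_ ?_ ?_ ?_ ?_ ?_ <;> first | with_reducible rfl | ring1)
theorem a12_T2 (s : F) : ac u12 (T2 s) = T2 s + O12 (s + s ^ 2) + T1 s := by
  apply Subtype.ext
  simp only [ac_val, AddSubgroup.coe_add, O12_val, O13_val, O23_val, T1_val, T2_val, T3_val, lit_add]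
  refine (lit_act ..).trans ?_
  simp only [q1, q2, q3, q4, q5, q6, q7, z2, tq, sq_sq]
  all_goals (refine lit_eq ?_ ?_ ?_ ?_ ?_ ?_ ?_ ?_ ?_ <;> first | with_reducible rfl | ring1)
theorem a21_T2 (s : F) : ac u21 (T2 s) = T2 s := by
  apply Subtype.ext
  simp only [ac_val, AddSubgroup.coe_add, O12_val, O13_val, O23_val, T1_val, T2_val, T3_val, lit_add]
  refine (lit_act ..).trans ?_
  simp only [q1, q2, q3, q4, q5, q6, q7, z2, tq, sq_sq]
  all_goals (refine lit_eq ?_ ?_ ?_ ?_ ?_ ?_ ?_ ?_ ?_ <;> first | with_reducible rfl | ring1)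
theorem a21_T3 (s : F) : ac u21 (T3 s) = T3 s := by
  apply Subtype.ext
  simp only [ac_val, AddSubgroup.coe_add, O12_val, O13_val, O23_val, T1_val, T2_val, T3_val, lit_add]
  refine (lit_act ..).trans ?_
  simp only [q1, q2, q3, q4, q5, q6, q7, z2, tq, sq_sq]
  all_goals (refine lit_eq ?_ ?_ ?_ ?_ ?_ ?_ ?_ ?_ ?_ <;> first | with_reducible rfl | ring1)
theorem a21_T1 (s : F) : ac u21 (T1 s) = T1 s + O12 (s + s ^ 2) + T2 s := by
  apply Subtype.ext
  simp only [ac_val, AddSubgroup.coe_add, O12_val, O13_val, O23_val, T1_val, T2_val, T3_val, lit_add]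
  refine (lit_act ..).trans ?_
  simp only [q1, q2, q3, q4, q5, q6, q7, z2, tq, sq_sq]
  all_goals (refine lit_eq ?_ ?_ ?_ ?_ ?_ ?_ ?_ ?_ ?_ <;> first | with_reducible rfl | ring1)

end

end Cfsg.Agent.H616.L34
end

-- part: H616/L34/Quad2
section
/-!
# S5917, row M9 (helper616): every `SL₃(4)`-invariant bilinear form on the exterior square of the module of hermitian
matrices vanishes
-/

set_option autoImplicit false
set_option linter.unusedSectionVars false

namespace Cfsg.Agent.H616.L34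

open Matrix Cfsg.Agent.H691.L34 Cfsg.Agent.H204.L34

variable {F : Type} [Field F] [Four F]

theorem zz (a : ZMod 2) : a + a = 0 := CharTwo.add_self_eq_zero a

/-- averaging over the elements of order three -/
theorem avg {v : F} (hv : v ^ 2 + v + 1 = 0) (h : F →+ ZMod 2) (hh : ∀ y, h (v * y) = h y) (y : F) : h y = 0 := by
  have e : v * (v * y) + v * y + y = 0 := by linear_combination y * hv
  have e1 := congrArg h e
  rw [map_add, map_add, hh, hh, map_zero, zz, zero_add] at e1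
  exact e1

/-- the torus element -/
def tor (w : F) (hw : w ^ 2 + w + 1 = 0) : G3 F := ⟨!![w, 0, 0; 0, w ^ 2, 0; 0, 0, 1], by
  rw [Matrix.det_fin_three]
  simp
  linear_combination (w - 1) * hw⟩

section tor

variable (w : F) (hw : w ^ 2 + w + 1 = 0)
include hw

theorem w3 : w ^ 3 = 1 := by linear_combination (w - 1) * hw

theorem tor_T1 (s : F) : ac (tor w hw) (T1 s) = T1 s := by
  have h3 := w3 w hw
  refine Subtype.ext ((lit_act ..).trans ?_)
  simp only [q1, q2, q3, q4, q5, q6, q7, z2]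
  refine lit_eq ?_ rfl rfl rfl rfl rfl rfl rfl rfl
  linear_combination (s + s ^ 2) * h3

theorem tor_T2 (s : F) : ac (tor w hw) (T2 s) = T2 s := by
  have h3 := w3 w hw
  refine Subtype.ext ((lit_act ..).trans ?_)
  simp only [q1, q2, q3, q4, q5, q6, q7, z2]
  refine lit_eq rfl rfl rfl rfl ?_ rfl rfl rfl rfl
  linear_combination (s + s ^ 2) * (w ^ 3 + 1) * h3

theorem tor_T3 (s : F) : ac (tor w hw) (T3 s) = T3 s := by
  refine Subtype.ext ((lit_act ..).trans ?_)
  simp only [q1, q2, q3, q4, q5, q6, q7, z2]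
  refine lit_eq rfl rfl rfl rfl rfl rfl rfl rfl ?_
  ring1

theorem tor_O12 (y : F) : ac (tor w hw) (O12 y) = O12 (w ^ 2 * y) := by
  have h3 := w3 w hw
  refine Subtype.ext ((lit_act ..).trans ?_)
  simp only [q1, q2, q3, q4, q5, q6, q7, z2]
  refine lit_eq rfl ?_ rfl (by ring1) rfl rfl rfl rfl rfl
  linear_combination (y * w ^ 2) * h3

theorem tor_O13 (y : F) : ac (tor w hw) (O13 y) = O13 (w * y) := by
  refine Subtype.ext ((lit_act ..).trans ?_)
  simp only [q1, q2, q3, q4, q5, q6, q7, z2]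
  refine lit_eq rfl rfl ?_ rfl rfl rfl (by ring1) rfl rfl
  ring1

theorem tor_O23 (y : F) : ac (tor w hw) (O23 y) = O23 (w ^ 2 * y) := by
  refine Subtype.ext ((lit_act ..).trans ?_)
  simp only [q1, q2, q3, q4, q5, q6, q7, z2]
  refine lit_eq rfl rfl rfl rfl rfl ?_ rfl (by ring1) rfl
  ring1

end tor

/-- every hermitian matrix -/
theorem decomp (w : F) (hw : w ^ 2 + w + 1 = 0) (X : HS F) : ∃ a b c x y z : F,
    X = T1 a + T2 b + T3 c + O12 x + O13 y + O23 z := by
  have h := two' (F := F)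
  have hX : ∀ i j, (X.1 j i) ^ 2 = X.1 i j := fun i j => HF_apply X.2 i j
  have hw4 : w + w ^ 2 = 1 := by linear_combination hw - h
  have hd : ∀ a : F, a ^ 2 = a → a * w + (a * w) ^ 2 = a := fun a ha => by
    linear_combination (w ^ 2) * ha + a * hw4
  refine ⟨X.1 0 0 * w, X.1 1 1 * w, X.1 2 2 * w, X.1 0 1, X.1 0 2, X.1 1 2, ?_⟩
  apply Subtype.ext
  simp only [AddSubgroup.coe_add, O12_val, O13_val, O23_val, T1_val, T2_val, T3_val, lit_add, q3, q4,
    hd _ (hX 0 0), hd _ (hX 1 1), hd _ (hX 2 2), hX 1 0, hX 2 0, hX 2 1]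
  exact Matrix.eta_fin_three _

/-- two additive maps which agree on the basic matrices -/
theorem eq_zero_of {A : Type} [AddCommGroup A] (w : F) (hw : w ^ 2 + w + 1 = 0) (k : HS F →+ A) (h1 : ∀ s, k (T1 s) = 0)
    (h2 : ∀ s, k (T2 s) = 0) (h3 : ∀ s, k (T3 s) = 0) (h4 : ∀ s, k (O12 s) = 0) (h5 : ∀ s, k (O13 s) = 0)
    (h6 : ∀ s, k (O23 s) = 0) (X : HS F) : k X = 0 := by
  obtain ⟨a, b, c, x, y, z, rfl⟩ := decomp w hw X
  simp only [AddMonoidHom.map_add, h1, h2, h3, h4, h5, h6, add_zero]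

/-- the values `T i s` are `0` or `T i w` -/
theorem s_cases (w : F) (hw : w ^ 2 + w + 1 = 0) (s : F) : s + s ^ 2 = 0 ∨ s + s ^ 2 = w + w ^ 2 := by
  have h := two' (F := F)
  have hw4 : w + w ^ 2 = 1 := by linear_combination hw - h
  have e : (s + s ^ 2) * (s + s ^ 2 - 1) = 0 := by
    have h1 := tq s
    linear_combination h1
  rcases mul_eq_zero.1 e with h1 | h1
  · exact Or.inl h1
  · right; rw [hw4]; linear_combination h1

theorem T1_cases (w : F) (hw : w ^ 2 + w + 1 = 0) (s : F) : T1 s = 0 ∨ T1 s = T1 w := by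
  rcases s_cases w hw s with h | h
  · left; apply Subtype.ext; rw [T1_val, h]; ext i j; fin_cases i <;> fin_cases j <;> rfl
  · right; apply Subtype.ext; rw [T1_val, T1_val, h]

theorem T2_cases (w : F) (hw : w ^ 2 + w + 1 = 0) (s : F) : T2 s = 0 ∨ T2 s = T2 w := by
  rcases s_cases w hw s with h | h
  · left; apply Subtype.ext; rw [T2_val, h]; ext i j; fin_cases i <;> fin_cases j <;> rfl
  · right; apply Subtype.ext; rw [T2_val, T2_val, h]

theorem T3_cases (w : F) (hw : w ^ 2 + w + 1 = 0) (s : F) : T3 s = 0 ∨ T3 s = T3 w := by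
  rcases s_cases w hw s with h | h
  · left; apply Subtype.ext; rw [T3_val, h]; ext i j; fin_cases i <;> fin_cases j <;> rfl
  · right; apply Subtype.ext; rw [T3_val, T3_val, h]

/-! ### the fourlinear form -/

private def f0 (F : Type) [Field F] [Four F] : HS F →+ HS F →+ HS F →+ HS F →+ ZMod 2 := 0

/-- an invariant form on the exterior square -/
structure Qf (f : type_of% (f0 F)) : Prop where
  inv : ∀ (g : G3 F) x y z w, f (ac g x) (ac g y) (ac g z) (ac g w) = f x y z w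
  a12 : ∀ x z w, f x x z w = 0
  a34 : ∀ x y z, f x y z z = 0

theorem Qf.s34 {f : type_of% (f0 F)} (hf : Qf f) (x y z t : HS F) : f x y z t = f x y t z := by
  have h := hf.a34 x y (z + t)
  simp only [AddMonoidHom.map_add, AddMonoidHom.add_apply, hf.a34, zero_add, add_zero] at h
  have h2 := zz (f x y t z)
  linear_combination h - h2

section

variable (w : F) (hw : w ^ 2 + w + 1 = 0) {f : type_of% (f0 F)} (hf : Qf f)
include hw hf

theorem w2 : (w ^ 2) ^ 2 + w ^ 2 + 1 = 0 := by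
  have h := two' (F := F)
  linear_combination (w ^ 2 - w + 1) * hw

/-- one off-diagonal matrix -/
theorem k1 (i : HS F) (hi : ac (tor w hw) i = i) (s : F) : f (T1 w) (T2 w) (O12 s) i = 0 ∧ f (T1 w) (T2 w) (O13 s) i = 0 ∧
    f (T1 w) (T2 w) (O23 s) i = 0 := by
  refine ⟨?_, ?_, ?_⟩
  · refine avg (w2 w hw hf) (AddMonoidHom.mk' (fun s => f (T1 w) (T2 w) (O12 s) i) (by
      intro a b; simp only [AddMonoidHom.map_add, AddMonoidHom.add_apply])) (fun y => ?_) s
    show f (T1 w) (T2 w) (O12 (w ^ 2 * y)) i = f (T1 w) (T2 w) (O12 y) i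
    have h := hf.inv (tor w hw) (T1 w) (T2 w) (O12 y) i
    simp only [tor_T1, tor_T2, tor_O12, hi] at h
    exact h
  · refine avg hw (AddMonoidHom.mk' (fun s => f (T1 w) (T2 w) (O13 s) i) (by
      intro a b; simp only [AddMonoidHom.map_add, AddMonoidHom.add_apply])) (fun y => ?_) s
    show f (T1 w) (T2 w) (O13 (w * y)) i = f (T1 w) (T2 w) (O13 y) i
    have h := hf.inv (tor w hw) (T1 w) (T2 w) (O13 y) i
    simp only [tor_T1, tor_T2, tor_O13, hi] at h
    exact h
  · refine avg (w2 w hw hf) (AddMonoidHom.mk' (fun s => f (T1 w) (T2 w) (O23 s) i) (by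
      intro a b; simp only [AddMonoidHom.map_add, AddMonoidHom.add_apply])) (fun y => ?_) s
    show f (T1 w) (T2 w) (O23 (w ^ 2 * y)) i = f (T1 w) (T2 w) (O23 y) i
    have h := hf.inv (tor w hw) (T1 w) (T2 w) (O23 y) i
    simp only [tor_T1, tor_T2, tor_O23, hi] at h
    exact h

theorem k2 (s : F) : f (T1 w) (O12 s) (T2 w) (T3 w) = 0 := by
  refine avg (w2 w hw hf) (AddMonoidHom.mk' (fun s => f (T1 w) (O12 s) (T2 w) (T3 w)) (by
      intro a b; simp only [AddMonoidHom.map_add, AddMonoidHom.add_apply])) (fun y => ?_) s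
  show f (T1 w) (O12 (w ^ 2 * y)) (T2 w) (T3 w) = f (T1 w) (O12 y) (T2 w) (T3 w)
  have h := hf.inv (tor w hw) (T1 w) (O12 y) (T2 w) (T3 w)
  simp only [tor_T1, tor_T2, tor_T3, tor_O12] at h
  exact h

theorem k3 (s : F) : f (O12 s) (T2 w) (T1 w) (T3 w) = 0 := by
  refine avg (w2 w hw hf) (AddMonoidHom.mk' (fun s => f (O12 s) (T2 w) (T1 w) (T3 w)) (by
      intro a b; simp only [AddMonoidHom.map_add, AddMonoidHom.add_apply])) (fun y => ?_) s
  show f (O12 (w ^ 2 * y)) (T2 w) (T1 w) (T3 w) = f (O12 y) (T2 w) (T1 w) (T3 w)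
  have h := hf.inv (tor w hw) (O12 y) (T2 w) (T1 w) (T3 w)
  simp only [tor_T1, tor_T2, tor_T3, tor_O12] at h
  exact h

theorem c12 : f (T1 w) (T2 w) (T1 w) (T2 w) = 0 := by
  have h := hf.inv u13 (T1 w) (T2 w) (T2 w) (T3 w)
  simp only [a13_T1, a13_T2, a13_T3] at h
  have e : ∀ s, f (T1 w) (T2 w) (T2 w) (O13 s) = 0 := fun s => by
    rw [hf.s34, (k1 w hw hf _ (tor_T2 w hw w) _).2.1]
  simp only [AddMonoidHom.map_add, e] at h
  rw [hf.s34 _ _ (T2 w) (T1 w)] at h
  linear_combination h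

theorem c13 : f (T1 w) (T2 w) (T1 w) (T3 w) = 0 := by
  have hu : (u12 : G3 F) * u12 = 1 := by
    apply Subtype.ext
    have h := two' (F := F)
    refine (Matrix.mul_fin_three ..).trans ((lit_eq (by ring1) ?_ (by ring1) (by ring1) (by ring1) (by ring1) (by ring1) (by ring1) (by ring1)).trans Matrix.one_fin_three.symm)
    linear_combination h
  have h := hf.inv u12 (T1 w) (ac u12 (T2 w)) (T2 w) (T3 w)
  simp only [↓ac_mul, hu, ac_one, a12_T1, a12_T2, a12_T3] at h
  simp only [AddMonoidHom.map_add, AddMonoidHom.add_apply, (k1 w hw hf _ (tor_T3 w hw w) _).1, k2 w hw hf, hf.a12] at h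
  linear_combination h

theorem c23 : f (T1 w) (T2 w) (T2 w) (T3 w) = 0 := by
  have hu : (u21 : G3 F) * u21 = 1 := by
    apply Subtype.ext
    have h := two' (F := F)
    refine (Matrix.mul_fin_three ..).trans ((lit_eq (by ring1) (by ring1) (by ring1) ?_ (by ring1) (by ring1) (by ring1) (by ring1) (by ring1)).trans Matrix.one_fin_three.symm)
    linear_combination h
  have h := hf.inv u21 (ac u21 (T1 w)) (T2 w) (T1 w) (T3 w)
  simp only [↓ac_mul, hu, ac_one, a21_T1, a21_T2, a21_T3] at h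
  simp only [AddMonoidHom.map_add, AddMonoidHom.add_apply, (k1 w hw hf _ (tor_T3 w hw w) _).1, k3 w hw hf, hf.a12] at h
  linear_combination h

/-- the diagonal part -/
theorem k4 (s t : F) : f (T1 w) (T2 w) (T1 s) (T2 t) = 0 ∧ f (T1 w) (T2 w) (T1 s) (T3 t) = 0 ∧
    f (T1 w) (T2 w) (T2 s) (T3 t) = 0 := by
  refine ⟨?_, ?_, ?_⟩
  · rcases T1_cases w hw s with h | h <;> rcases T2_cases w hw t with h' | h' <;>
      simp only [h, h', c12 w hw hf, AddMonoidHom.map_zero, AddMonoidHom.zero_apply]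
  · rcases T1_cases w hw s with h | h <;> rcases T3_cases w hw t with h' | h' <;>
      simp only [h, h', c13 w hw hf, AddMonoidHom.map_zero, AddMonoidHom.zero_apply]
  · rcases T2_cases w hw s with h | h <;> rcases T3_cases w hw t with h' | h' <;>
      simp only [h, h', c23 w hw hf, AddMonoidHom.map_zero, AddMonoidHom.zero_apply]

theorem k5 (s t : F) : f (T1 w) (T2 w) (T1 s) (T1 t) = 0 ∧ f (T1 w) (T2 w) (T2 s) (T2 t) = 0 ∧
    f (T1 w) (T2 w) (T3 s) (T3 t) = 0 := by
  refine ⟨?_, ?_, ?_⟩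
  · rcases T1_cases w hw s with h | h <;> rcases T1_cases w hw t with h' | h' <;>
      simp only [h, h', hf.a34, AddMonoidHom.map_zero, AddMonoidHom.zero_apply]
  · rcases T2_cases w hw s with h | h <;> rcases T2_cases w hw t with h' | h' <;>
      simp only [h, h', hf.a34, AddMonoidHom.map_zero, AddMonoidHom.zero_apply]
  · rcases T3_cases w hw s with h | h <;> rcases T3_cases w hw t with h' | h' <;>
      simp only [h, h', hf.a34, AddMonoidHom.map_zero, AddMonoidHom.zero_apply]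

/-- one off-diagonal matrix, all cases -/
theorem k6 (s t : F) : (f (T1 w) (T2 w) (O12 s) (T1 t) = 0 ∧ f (T1 w) (T2 w) (O12 s) (T2 t) = 0 ∧
    f (T1 w) (T2 w) (O12 s) (T3 t) = 0) ∧ (f (T1 w) (T2 w) (O13 s) (T1 t) = 0 ∧ f (T1 w) (T2 w) (O13 s) (T2 t) = 0 ∧
    f (T1 w) (T2 w) (O13 s) (T3 t) = 0) ∧ (f (T1 w) (T2 w) (O23 s) (T1 t) = 0 ∧ f (T1 w) (T2 w) (O23 s) (T2 t) = 0 ∧
    f (T1 w) (T2 w) (O23 s) (T3 t) = 0) := by
  have h1 := k1 w hw hf _ (tor_T1 w hw t) s
  have h2 := k1 w hw hf _ (tor_T2 w hw t) s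
  have h3 := k1 w hw hf _ (tor_T3 w hw t) s
  exact ⟨⟨h1.1, h2.1, h3.1⟩, ⟨h1.2.1, h2.2.1, h3.2.1⟩, ⟨h1.2.2, h2.2.2, h3.2.2⟩⟩

/-- scaling by the torus -/
theorem sc {p q : F → HS F} {a b : F} (hp : ∀ y, ac (tor w hw) (p y) = p (a * y)) (hq : ∀ y, ac (tor w hw) (q y) = q (b * y))
    (x y : F) : f (T1 w) (T2 w) (p (a * x)) (q (b * y)) = f (T1 w) (T2 w) (p x) (q y) := by
  have h := hf.inv (tor w hw) (T1 w) (T2 w) (p x) (q y)
  simp only [tor_T1, tor_T2, hp, hq] at h
  exact h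

theorem all_of_one {p q : F →+ HS F} {a b : F} (hp : ∀ y, ac (tor w hw) (p y) = p (a * y))
    (hq : ∀ y, ac (tor w hw) (q y) = q (b * y)) (hb : b ^ 2 + b + 1 = 0) (ha : a ^ 3 = 1)
    (h1 : ∀ x, f (T1 w) (T2 w) (p x) (q 1) = 0) (x y : F) : f (T1 w) (T2 w) (p x) (q y) = 0 := by
  have h2 := two' (F := F)
  have hbb : ∀ x, f (T1 w) (T2 w) (p x) (q b) = 0 := fun x => by
    have h := sc w hw hf (p := p) (q := q) hp hq (a ^ 2 * x) 1
    rw [mul_one, h1] at h
    have e : a * (a ^ 2 * x) = x := by linear_combination x * ha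
    rwa [e] at h
  have hb2 : ∀ x, f (T1 w) (T2 w) (p x) (q (b ^ 2)) = 0 := fun x => by
    have h := sc w hw hf (p := p) (q := q) hp hq (a ^ 2 * x) b
    rw [hbb] at h
    have e : a * (a ^ 2 * x) = x := by linear_combination x * ha
    rw [e] at h
    rw [pow_two]
    exact h
  have hc : y = 0 ∨ y = 1 ∨ y = b ∨ y = b ^ 2 := by
    have e : y * ((y - 1) * ((y - b) * (y - b ^ 2))) = 0 := by
      have h3 : b ^ 3 = 1 := by linear_combination (b - 1) * hb
      have h4 := four' y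
      linear_combination h4 - (y ^ 3 - y ^ 2) * hb + (y ^ 2 - y) * h3
    rcases mul_eq_zero.1 e with h | h
    · exact Or.inl h
    rcases mul_eq_zero.1 h with h | h
    · exact Or.inr (Or.inl (by linear_combination h))
    rcases mul_eq_zero.1 h with h | h
    · exact Or.inr (Or.inr (Or.inl (by linear_combination h)))
    · exact Or.inr (Or.inr (Or.inr (by linear_combination h)))
  rcases hc with h | h | h | h
  · rw [h, AddMonoidHom.map_zero, AddMonoidHom.map_zero]
  · rw [h]; exact h1 x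
  · rw [h]; exact hbb x
  · rw [h]; exact hb2 x

theorem o1313 (x y : F) : f (T1 w) (T2 w) (O13 x) (O13 y) = 0 := by
  refine all_of_one w hw hf (p := O13) (q := O13) (tor_O13 w hw) (tor_O13 w hw) hw (w3 w hw) (fun x => ?_) x y
  have h := hf.inv u13 (T1 w) (T2 w) (O13 x) (T3 w)
  have hw4 : w + w ^ 2 = 1 := by have h := two' (F := F); linear_combination hw - h
  simp only [a13_T1, a13_T2, a13_T3, a13_O13, hw4] at h
  simp only [AddMonoidHom.map_add, AddMonoidHom.add_apply, (k6 w hw hf _ _).2.1.1, (k6 w hw hf _ _).2.1.2.2, (k4 w hw hf _ _).2.1,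
    (k5 w hw hf _ _).1, hf.s34 _ _ (T1 _) (O13 _), add_zero, zero_add] at h
  exact h

theorem o2323 (x y : F) : f (T1 w) (T2 w) (O23 x) (O23 y) = 0 := by
  refine all_of_one w hw hf (p := O23) (q := O23) (tor_O23 w hw) (tor_O23 w hw) (w2 w hw hf)
    (by have := w3 w hw; linear_combination (w ^ 3 + 1) * this) (fun x => ?_) x y
  have h := hf.inv u23 (T1 w) (T2 w) (O23 x) (T3 w)
  have hw4 : w + w ^ 2 = 1 := by have h := two' (F := F); linear_combination hw - h
  simp only [a23_T1, a23_T2, a23_T3, a23_O23, hw4] at h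
  simp only [AddMonoidHom.map_add, AddMonoidHom.add_apply, (k6 w hw hf _ _).2.2.2.1, (k6 w hw hf _ _).2.2.2.2, (k4 w hw hf _ _).2.2,
    (k5 w hw hf _ _).2.1, hf.s34 _ _ (T2 _) (O23 _), add_zero, zero_add] at h
  exact h

theorem o1312 (x y : F) : f (T1 w) (T2 w) (O13 x) (O12 y) = 0 := by
  have h := hf.inv u13 (T1 w) (T2 w) (O13 x) (O23 (y ^ 2))
  simp only [a13_T1, a13_T2, a13_O23, a13_O13, sq_sq] at h
  simp only [AddMonoidHom.map_add, AddMonoidHom.add_apply, hf.s34 _ _ (T1 _) (O23 _), hf.s34 _ _ (T1 _) (O12 _),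
    (k6 w hw hf _ _).2.2.1, (k6 w hw hf _ _).1.1] at h
  linear_combination h

theorem o2312 (x y : F) : f (T1 w) (T2 w) (O23 x) (O12 y) = 0 := by
  have h := hf.inv u23 (T1 w) (T2 w) (O23 x) (O13 y)
  simp only [a23_T1, a23_T2, a23_O23, a23_O13] at h
  simp only [AddMonoidHom.map_add, AddMonoidHom.add_apply, hf.s34 _ _ (T2 _) (O13 _), hf.s34 _ _ (T2 _) (O12 _),
    (k6 w hw hf _ _).2.1.2.1, (k6 w hw hf _ _).1.2.1] at h
  linear_combination h

theorem o1212 (x y : F) : f (T1 w) (T2 w) (O12 x) (O12 y) = 0 := by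
  have h := hf.inv u13 (T1 w) (T2 w) (O23 (x ^ 2)) (O12 y)
  simp only [a13_T1, a13_T2, a13_O23, a13_O12, sq_sq] at h
  simp only [AddMonoidHom.map_add, AddMonoidHom.add_apply] at h
  linear_combination h

theorem o2313 (x y : F) : f (T1 w) (T2 w) (O23 x) (O13 y) = 0 := by
  refine all_of_one w hw hf (p := O23) (q := O13) (tor_O23 w hw) (tor_O13 w hw) hw
    (by have := w3 w hw; linear_combination (w ^ 3 + 1) * this) (fun x => ?_) x y
  have h := hf.inv u13 (T1 w) (T2 w) (O23 x) (T3 w)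
  have hw4 : w + w ^ 2 = 1 := by have h := two' (F := F); linear_combination hw - h
  simp only [a13_T1, a13_T2, a13_T3, a13_O23, hw4] at h
  have e : ∀ x y, f (T1 w) (T2 w) (O12 x) (O13 y) = 0 := fun x y => by rw [hf.s34]; exact o1312 w hw hf y x
  simp only [AddMonoidHom.map_add, AddMonoidHom.add_apply, (k6 w hw hf _ _).2.2.1, (k6 w hw hf _ _).2.2.2.2, (k6 w hw hf _ _).1.1,
    (k6 w hw hf _ _).1.2.2, e, add_zero, zero_add] at h
  exact h

/-- the form vanishes at the first pair -/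
theorem first (z t : HS F) : f (T1 w) (T2 w) z t = 0 := by
  have e2 : ∀ (i : HS F), (∀ s, f (T1 w) (T2 w) (T1 s) i = 0) → (∀ s, f (T1 w) (T2 w) (T2 s) i = 0) →
      (∀ s, f (T1 w) (T2 w) (T3 s) i = 0) → (∀ s, f (T1 w) (T2 w) (O12 s) i = 0) →
      (∀ s, f (T1 w) (T2 w) (O13 s) i = 0) → (∀ s, f (T1 w) (T2 w) (O23 s) i = 0) → f (T1 w) (T2 w) z i = 0 := by
    intro i g1 g2 g3 g4 g5 g6
    exact eq_zero_of w hw (AddMonoidHom.mk' (fun z => f (T1 w) (T2 w) z i) (by
      intro a b; simp only [AddMonoidHom.map_add, AddMonoidHom.add_apply])) g1 g2 g3 g4 g5 g6 z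
  have sw : ∀ x y, f (T1 w) (T2 w) x y = 0 → f (T1 w) (T2 w) y x = 0 := fun x y h => by rw [hf.s34]; exact h
  refine eq_zero_of w hw (f (T1 w) (T2 w) z) ?_ ?_ ?_ ?_ ?_ ?_ t <;> intro t
  · exact e2 _ (fun s => (k5 w hw hf s t).1) (fun s => sw _ _ (k4 w hw hf t s).1) (fun s => sw _ _ (k4 w hw hf t s).2.1)
      (fun s => (k6 w hw hf s t).1.1) (fun s => (k6 w hw hf s t).2.1.1) (fun s => (k6 w hw hf s t).2.2.1)
  · exact e2 _ (fun s => (k4 w hw hf s t).1) (fun s => (k5 w hw hf s t).2.1) (fun s => sw _ _ (k4 w hw hf t s).2.2)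
      (fun s => (k6 w hw hf s t).1.2.1) (fun s => (k6 w hw hf s t).2.1.2.1) (fun s => (k6 w hw hf s t).2.2.2.1)
  · exact e2 _ (fun s => (k4 w hw hf s t).2.1) (fun s => (k4 w hw hf s t).2.2) (fun s => (k5 w hw hf s t).2.2)
      (fun s => (k6 w hw hf s t).1.2.2) (fun s => (k6 w hw hf s t).2.1.2.2) (fun s => (k6 w hw hf s t).2.2.2.2)
  · exact e2 _ (fun s => sw _ _ (k6 w hw hf t s).1.1) (fun s => sw _ _ (k6 w hw hf t s).1.2.1)
      (fun s => sw _ _ (k6 w hw hf t s).1.2.2) (fun s => o1212 w hw hf s t) (fun s => o1312 w hw hf s t)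
      (fun s => o2312 w hw hf s t)
  · exact e2 _ (fun s => sw _ _ (k6 w hw hf t s).2.1.1) (fun s => sw _ _ (k6 w hw hf t s).2.1.2.1)
      (fun s => sw _ _ (k6 w hw hf t s).2.1.2.2) (fun s => sw _ _ (o1312 w hw hf t s)) (fun s => o1313 w hw hf s t)
      (fun s => o2313 w hw hf s t)
  · exact e2 _ (fun s => sw _ _ (k6 w hw hf t s).2.2.1) (fun s => sw _ _ (k6 w hw hf t s).2.2.2.1)
      (fun s => sw _ _ (k6 w hw hf t s).2.2.2.2) (fun s => sw _ _ (o2312 w hw hf t s))
      (fun s => sw _ _ (o2313 w hw hf t s)) (fun s => o2323 w hw hf s t)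

end

end Cfsg.Agent.H616.L34
end

-- part: H616/L34/Quad3
section
/-!
# S5917, row M9 (helper616): every `SL₃(4)`-invariant bilinear form on the exterior square of the module of hermitian
matrices vanishes (conclusion)
-/

set_option autoImplicit false
set_option linter.unusedSectionVars false

namespace Cfsg.Agent.H616.L34

open Matrix Cfsg.Agent.H691.L34 Cfsg.Agent.H204.L34

variable {F : Type} [Field F] [Four F]

def p23 : G3 F := ⟨!![1, 0, 0; 0, 0, 1; 0, 1, 0], by simp [Matrix.det_fin_three, neg_eq]⟩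
def p13 : G3 F := ⟨!![0, 0, 1; 0, 1, 0; 1, 0, 0], by simp [Matrix.det_fin_three, neg_eq]⟩
def p12 : G3 F := ⟨!![0, 1, 0; 1, 0, 0; 0, 0, 1], by simp [Matrix.det_fin_three, neg_eq]⟩

macro "hp" : tactic => `(tactic| (
  apply Subtype.ext
  ext i j
  simp only [ac_val, hact_apply, AddSubgroup.coe_add, Matrix.add_apply, O12_val, O13_val, O23_val, T1_val, T2_val, T3_val]
  fin_cases i <;> fin_cases j <;> simp [p23, p13, p12, u12, u21, tq, sq_sq, sq_add, ← pow_mul, four'] <;> try ring))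

theorem p23_T1 (s : F) : ac p23 (T1 s) = T1 s := by
  apply Subtype.ext
  simp only [ac_val, AddSubgroup.coe_add, O12_val, O13_val, O23_val, T1_val, T2_val, T3_val, lit_add]
  refine (lit_act ..).trans ?_
  simp only [q1, q2, q3, q4, q5, q6, q7, z2, tq, sq_sq]
  all_goals (refine lit_eq ?_ ?_ ?_ ?_ ?_ ?_ ?_ ?_ ?_ <;> first | with_reducible rfl | ring1)
theorem p23_T2 (s : F) : ac p23 (T2 s) = T3 s := by
  apply Subtype.ext
  simp only [ac_val, AddSubgroup.coe_add, O12_val, O13_val, O23_val, T1_val, T2_val, T3_val, lit_add]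
  refine (lit_act ..).trans ?_
  simp only [q1, q2, q3, q4, q5, q6, q7, z2, tq, sq_sq]
  all_goals (refine lit_eq ?_ ?_ ?_ ?_ ?_ ?_ ?_ ?_ ?_ <;> first | with_reducible rfl | ring1)
theorem p23_O12 (s : F) : ac p23 (O12 s) = O13 s := by
  apply Subtype.ext
  simp only [ac_val, AddSubgroup.coe_add, O12_val, O13_val, O23_val, T1_val, T2_val, T3_val, lit_add]
  refine (lit_act ..).trans ?_
  simp only [q1, q2, q3, q4, q5, q6, q7, z2, tq, sq_sq]
  all_goals (refine lit_eq ?_ ?_ ?_ ?_ ?_ ?_ ?_ ?_ ?_ <;> first | with_reducible rfl | ring1)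
theorem p23_O23 (s : F) : ac p23 (O23 s) = O23 (s ^ 2) := by
  apply Subtype.ext
  simp only [ac_val, AddSubgroup.coe_add, O12_val, O13_val, O23_val, T1_val, T2_val, T3_val, lit_add]
  refine (lit_act ..).trans ?_
  simp only [q1, q2, q3, q4, q5, q6, q7, z2, tq, sq_sq]
  all_goals (refine lit_eq ?_ ?_ ?_ ?_ ?_ ?_ ?_ ?_ ?_ <;> first | with_reducible rfl | ring1)
theorem p12_T1 (s : F) : ac p12 (T1 s) = T2 s := by
  apply Subtype.ext
  simp only [ac_val, AddSubgroup.coe_add, O12_val, O13_val, O23_val, T1_val, T2_val, T3_val, lit_add]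
  refine (lit_act ..).trans ?_
  simp only [q1, q2, q3, q4, q5, q6, q7, z2, tq, sq_sq]
  all_goals (refine lit_eq ?_ ?_ ?_ ?_ ?_ ?_ ?_ ?_ ?_ <;> first | with_reducible rfl | ring1)
theorem p12_T3 (s : F) : ac p12 (T3 s) = T3 s := by
  apply Subtype.ext
  simp only [ac_val, AddSubgroup.coe_add, O12_val, O13_val, O23_val, T1_val, T2_val, T3_val, lit_add]
  refine (lit_act ..).trans ?_
  simp only [q1, q2, q3, q4, q5, q6, q7, z2, tq, sq_sq]
  all_goals (refine lit_eq ?_ ?_ ?_ ?_ ?_ ?_ ?_ ?_ ?_ <;> first | with_reducible rfl | ring1)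
theorem p12_O12 (s : F) : ac p12 (O12 s) = O12 (s ^ 2) := by
  apply Subtype.ext
  simp only [ac_val, AddSubgroup.coe_add, O12_val, O13_val, O23_val, T1_val, T2_val, T3_val, lit_add]
  refine (lit_act ..).trans ?_
  simp only [q1, q2, q3, q4, q5, q6, q7, z2, tq, sq_sq]
  all_goals (refine lit_eq ?_ ?_ ?_ ?_ ?_ ?_ ?_ ?_ ?_ <;> first | with_reducible rfl | ring1)
theorem p12_O13 (s : F) : ac p12 (O13 s) = O23 s := by
  apply Subtype.ext
  simp only [ac_val, AddSubgroup.coe_add, O12_val, O13_val, O23_val, T1_val, T2_val, T3_val, lit_add]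
  refine (lit_act ..).trans ?_
  simp only [q1, q2, q3, q4, q5, q6, q7, z2, tq, sq_sq]
  all_goals (refine lit_eq ?_ ?_ ?_ ?_ ?_ ?_ ?_ ?_ ?_ <;> first | with_reducible rfl | ring1)
theorem p12_O23 (s : F) : ac p12 (O23 s) = O13 s := by
  apply Subtype.ext
  simp only [ac_val, AddSubgroup.coe_add, O12_val, O13_val, O23_val, T1_val, T2_val, T3_val, lit_add]
  refine (lit_act ..).trans ?_
  simp only [q1, q2, q3, q4, q5, q6, q7, z2, tq, sq_sq]
  all_goals (refine lit_eq ?_ ?_ ?_ ?_ ?_ ?_ ?_ ?_ ?_ <;> first | with_reducible rfl | ring1)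
theorem p13_T1 (s : F) : ac p13 (T1 s) = T3 s := by
  apply Subtype.ext
  simp only [ac_val, AddSubgroup.coe_add, O12_val, O13_val, O23_val, T1_val, T2_val, T3_val, lit_add]
  refine (lit_act ..).trans ?_
  simp only [q1, q2, q3, q4, q5, q6, q7, z2, tq, sq_sq]
  all_goals (refine lit_eq ?_ ?_ ?_ ?_ ?_ ?_ ?_ ?_ ?_ <;> first | with_reducible rfl | ring1)
theorem p13_O13 (s : F) : ac p13 (O13 s) = O13 (s ^ 2) := by
  apply Subtype.ext
  simp only [ac_val, AddSubgroup.coe_add, O12_val, O13_val, O23_val, T1_val, T2_val, T3_val, lit_add]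
  refine (lit_act ..).trans ?_
  simp only [q1, q2, q3, q4, q5, q6, q7, z2, tq, sq_sq]
  all_goals (refine lit_eq ?_ ?_ ?_ ?_ ?_ ?_ ?_ ?_ ?_ <;> first | with_reducible rfl | ring1)
theorem p13_O12 (s : F) : ac p13 (O12 s) = O23 (s ^ 2) := by
  apply Subtype.ext
  simp only [ac_val, AddSubgroup.coe_add, O12_val, O13_val, O23_val, T1_val, T2_val, T3_val, lit_add]
  refine (lit_act ..).trans ?_
  simp only [q1, q2, q3, q4, q5, q6, q7, z2, tq, sq_sq]
  all_goals (refine lit_eq ?_ ?_ ?_ ?_ ?_ ?_ ?_ ?_ ?_ <;> first | with_reducible rfl | ring1)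
theorem p13_O23 (s : F) : ac p13 (O23 s) = O12 (s ^ 2) := by
  apply Subtype.ext
  simp only [ac_val, AddSubgroup.coe_add, O12_val, O13_val, O23_val, T1_val, T2_val, T3_val, lit_add]
  refine (lit_act ..).trans ?_
  simp only [q1, q2, q3, q4, q5, q6, q7, z2, tq, sq_sq]
  all_goals (refine lit_eq ?_ ?_ ?_ ?_ ?_ ?_ ?_ ?_ ?_ <;> first | with_reducible rfl | ring1)
theorem a21_O12 (s : F) : ac u21 (O12 s) = O12 s + T2 s := by
  apply Subtype.ext
  simp only [ac_val, AddSubgroup.coe_add, O12_val, O13_val, O23_val, T1_val, T2_val, T3_val, lit_add]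
  refine (lit_act ..).trans ?_
  simp only [q1, q2, q3, q4, q5, q6, q7, z2, tq, sq_sq]
  all_goals (refine lit_eq ?_ ?_ ?_ ?_ ?_ ?_ ?_ ?_ ?_ <;> first | with_reducible rfl | ring1)
theorem a12_O13 (s : F) : ac u12 (O13 s) = O13 s := by
  apply Subtype.ext
  simp only [ac_val, AddSubgroup.coe_add, O12_val, O13_val, O23_val, T1_val, T2_val, T3_val, lit_add]
  refine (lit_act ..).trans ?_
  simp only [q1, q2, q3, q4, q5, q6, q7, z2, tq, sq_sq]
  all_goals (refine lit_eq ?_ ?_ ?_ ?_ ?_ ?_ ?_ ?_ ?_ <;> first | with_reducible rfl | ring1)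
theorem a21_O23 (s : F) : ac u21 (O23 s) = O23 s := by
  apply Subtype.ext
  simp only [ac_val, AddSubgroup.coe_add, O12_val, O13_val, O23_val, T1_val, T2_val, T3_val, lit_add]
  refine (lit_act ..).trans ?_
  simp only [q1, q2, q3, q4, q5, q6, q7, z2, tq, sq_sq]
  all_goals (refine lit_eq ?_ ?_ ?_ ?_ ?_ ?_ ?_ ?_ ?_ <;> first | with_reducible rfl | ring1)

/-- the form vanishes if the first pair is `x, y` -/
def Z (f : type_of% (f0 F)) (x y : HS F) : Prop := f x y = 0

section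

variable (w : F) (hw : w ^ 2 + w + 1 = 0) {f : type_of% (f0 F)} (hf : Qf f)
include hf

theorem Z.symm {x y : HS F} (h : Z f x y) : Z f y x := by
  have h1 : f (x + y) (x + y) = 0 := by
    ext z t; exact hf.a12 _ _ _
  have h2 : f x x = 0 := by ext z t; exact hf.a12 _ _ _
  have h3 : f y y = 0 := by ext z t; exact hf.a12 _ _ _
  simp only [AddMonoidHom.map_add, AddMonoidHom.add_apply, h2, h3, zero_add, add_zero] at h1
  have h' : f x y = 0 := h
  rw [h'] at h1
  simpa [Z] using h1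

theorem Z.ac {x y : HS F} (h : Z f x y) (g : G3 F) : Z f (ac g x) (ac g y) := by
  show f (L34.ac g x) (L34.ac g y) = 0
  have h' : f x y = 0 := h
  ext z t
  have h1 := hf.inv g x y (L34.ac g⁻¹ z) (L34.ac g⁻¹ t)
  rw [ac_inv, ac_inv, h'] at h1
  exact h1

theorem Z.self (x : HS F) : Z f x x := by
  show f x x = 0
  ext z t; exact hf.a12 _ _ _

end

section

variable {f : type_of% (f0 F)}

theorem Z.r1 {x y z : HS F} (h : Z f x (y + z)) (h' : Z f x y) : Z f x z := by
  have h1 : f x (y + z) = 0 := h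
  have h2 : f x y = 0 := h'
  rw [AddMonoidHom.map_add, h2, zero_add] at h1
  exact h1

theorem Z.r2 {x y z : HS F} (h : Z f x (y + z)) (h' : Z f x z) : Z f x y := by
  have h1 : f x (y + z) = 0 := h
  have h2 : f x z = 0 := h'
  rw [AddMonoidHom.map_add, h2, add_zero] at h1
  exact h1

theorem Z.l1 {x y z : HS F} (h : Z f (y + z) x) (h' : Z f y x) : Z f z x := by
  have h1 : f (y + z) x = 0 := h
  have h2 : f y x = 0 := h'
  rw [AddMonoidHom.map_add, AddMonoidHom.add_apply, h2, zero_add] at h1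
  exact h1

theorem Z.l2 {x y z : HS F} (h : Z f (y + z) x) (h' : Z f z x) : Z f y x := by
  have h1 : f (y + z) x = 0 := h
  have h2 : f z x = 0 := h'
  rw [AddMonoidHom.map_add, AddMonoidHom.add_apply, h2, add_zero] at h1
  exact h1

theorem four_cases (b : F) (hb : b ^ 2 + b + 1 = 0) (y : F) : y = 0 ∨ y = 1 ∨ y = b ∨ y = b ^ 2 := by
  have e : y * ((y - 1) * ((y - b) * (y - b ^ 2))) = 0 := by
    have h3 : b ^ 3 = 1 := by linear_combination (b - 1) * hb
    have h4 := four' y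
    linear_combination h4 - (y ^ 3 - y ^ 2) * hb + (y ^ 2 - y) * h3
  rcases mul_eq_zero.1 e with h | h
  · exact Or.inl h
  rcases mul_eq_zero.1 h with h | h
  · exact Or.inr (Or.inl (by linear_combination h))
  rcases mul_eq_zero.1 h with h | h
  · exact Or.inr (Or.inr (Or.inl (by linear_combination h)))
  · exact Or.inr (Or.inr (Or.inr (by linear_combination h)))

end

section

variable (w : F) (hw : w ^ 2 + w + 1 = 0) {f : type_of% (f0 F)} (hf : Qf f)
include hw hf

theorem ext1 {x : HS F} (hx : ac (tor w hw) x = x) {p : F →+ HS F} {a : F} (ha : a ^ 2 + a + 1 = 0)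
    (hp : ∀ y, ac (tor w hw) (p y) = p (a * y)) (h : Z f x (p 1)) (y : F) : Z f x (p y) := by
  have h1 := Z.ac hf h (tor w hw)
  rw [hx, hp, mul_one] at h1
  have h2 := Z.ac hf h1 (tor w hw)
  rw [hx, hp] at h2
  rcases four_cases a ha y with e | e | e | e
  · rw [e, AddMonoidHom.map_zero]; show f x 0 = 0; rw [AddMonoidHom.map_zero]
  · rw [e]; exact h
  · rw [e]; exact h1
  · rw [e, pow_two]; exact h2

theorem ext2 {p q : F →+ HS F} {a b : F} (ha : a ^ 2 + a + 1 = 0) (hp : ∀ y, ac (tor w hw) (p y) = p (a * y))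
    (hb : b ^ 3 = 1) (hq : ∀ y, ac (tor w hw) (q y) = q (b * y)) (h : ∀ y, Z f (p 1) (q y)) (x y : F) :
    Z f (p x) (q y) := by
  have h1 : ∀ y, Z f (p a) (q y) := fun y => by
    have h1 := Z.ac hf (h (b ^ 2 * y)) (tor w hw)
    have e : b * (b ^ 2 * y) = y := by linear_combination y * hb
    rwa [hp, mul_one, hq, e] at h1
  have h2 : ∀ y, Z f (p (a ^ 2)) (q y) := fun y => by
    have h1 := Z.ac hf (h1 (b ^ 2 * y)) (tor w hw)
    have e : b * (b ^ 2 * y) = y := by linear_combination y * hb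
    rwa [hp, ← pow_two, hq, e] at h1
  rcases four_cases a ha x with e | e | e | e
  · rw [e, AddMonoidHom.map_zero]; show f 0 _ = 0; rw [AddMonoidHom.map_zero]; rfl
  · rw [e]; exact h y
  · rw [e]; exact h1 y
  · rw [e]; exact h2 y

theorem TT_of {x : HS F} (t : F →+ HS F) (ht : ∀ s, t s = 0 ∨ t s = t w) (h : Z f x (t w)) (s : F) : Z f x (t s) := by
  rcases ht s with e | e
  · rw [e]; show f x 0 = 0; rw [AddMonoidHom.map_zero]
  · rw [e]; exact h

/-- **every invariant form on the exterior square is zero** -/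
theorem form_zero (x y z t : HS F) : f x y z t = 0 := by
  have hw' := w2 w hw hf
  have h3 := w3 w hw
  have h3' : (w ^ 2) ^ 3 = 1 := by linear_combination (w ^ 3 + 1) * h3
  have hw4 : w + w ^ 2 = 1 := by have h := two' (F := F); linear_combination hw - h
  have A1 : Z f (T1 w) (T2 w) := by
    show f (T1 w) (T2 w) = 0
    ext z t
    exact first w hw hf z t
  have A2 : Z f (T1 w) (T3 w) := by
    have h := Z.ac hf A1 p23
    rwa [p23_T1, p23_T2] at h
  have A3 : Z f (T2 w) (T3 w) := by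
    have h := Z.ac hf A2 p12
    rwa [p12_T1, p12_T3] at h
  have B12 : Z f (T1 w) (O12 1) := by
    have h := Z.ac hf A1 u12
    rw [a12_T1, a12_T2, hw4] at h
    exact (h.r2 (Z.self hf _)).r1 A1
  have B13 : Z f (T1 w) (O13 1) := by
    have h := Z.ac hf B12 p23
    rwa [p23_T1, p23_O12] at h
  have B23 : Z f (T1 w) (O23 1) := by
    have h := Z.ac hf A2 u23
    rw [a23_T1, a23_T3, hw4] at h
    exact (h.r2 A1).r1 A2
  have C12 : Z f (T2 w) (O12 1) := by
    have h := Z.ac hf B12 p12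
    rwa [p12_T1, p12_O12, one_pow] at h
  have C23 : Z f (T2 w) (O23 1) := by
    have h := Z.ac hf B13 p12
    rwa [p12_T1, p12_O13] at h
  have C13 : Z f (T2 w) (O13 1) := by
    have h := Z.ac hf B23 p12
    rwa [p12_T1, p12_O23] at h
  have D13 : Z f (T3 w) (O13 1) := by
    have h := Z.ac hf B13 p13
    rwa [p13_T1, p13_O13, one_pow] at h
  have D23 : Z f (T3 w) (O23 1) := by
    have h := Z.ac hf B12 p13
    rwa [p13_T1, p13_O12, one_pow] at h
  have D12 : Z f (T3 w) (O12 1) := by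
    have h := Z.ac hf B23 p13
    rwa [p13_T1, p13_O23, one_pow] at h
  have X1 := tor_T1 w hw w
  have X2 := tor_T2 w hw w
  have X3 := tor_T3 w hw w
  have P12 := tor_O12 w hw
  have P13 := tor_O13 w hw
  have P23 := tor_O23 w hw
  have b12 := ext1 w hw hf X1 hw' P12 B12
  have b13 := ext1 w hw hf X1 hw P13 B13
  have b23 := ext1 w hw hf X1 hw' P23 B23
  have c12 := ext1 w hw hf X2 hw' P12 C12
  have c13 := ext1 w hw hf X2 hw P13 C13
  have c23 := ext1 w hw hf X2 hw' P23 C23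
  have d12 := ext1 w hw hf X3 hw' P12 D12
  have d13 := ext1 w hw hf X3 hw P13 D13
  have d23 := ext1 w hw hf X3 hw' P23 D23
  have tt2 : ∀ {x : HS F}, Z f x (T2 w) → ∀ s, Z f x (T2 s) := fun h s => TT_of w hw hf T2 (T2_cases w hw) h s
  have e1212 : ∀ x y, Z f (O12 x) (O12 y) := ext2 w hw hf hw' P12 h3' P12 (fun y => by
    have h := Z.ac hf (b12 y) u21
    rw [a21_T1, a21_O12, hw4] at h
    have h1 : Z f (T1 w + O12 1 + T2 w) (T2 y) :=
      Z.symm hf (by
        have g1 : Z f (T2 y) (T1 w) := Z.symm hf (tt2 A1 y)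
        have g2 : Z f (T2 y) (O12 1) := Z.symm hf (tt2 (Z.symm hf C12) y)
        have g3 : Z f (T2 y) (T2 w) := Z.symm hf (tt2 (Z.self hf _) y)
        show f (T2 y) (T1 w + O12 1 + T2 w) = 0
        rw [AddMonoidHom.map_add, AddMonoidHom.map_add, g1, g2, g3, add_zero, add_zero])
    exact ((h.r2 h1).l2 (c12 y)).l1 (b12 y))
  have e1213 : ∀ x y, Z f (O12 x) (O13 y) := ext2 w hw hf hw' P12 h3 P13 (fun y => by
    have h := Z.ac hf (c13 y) u12
    rw [a12_T2, a12_O13, hw4] at h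
    exact (h.l2 (b13 y)).l1 (c13 y))
  have e1223 : ∀ x y, Z f (O12 x) (O23 y) := ext2 w hw hf hw' P12 h3' P23 (fun y => by
    have h := Z.ac hf (b23 y) u21
    rw [a21_T1, a21_O23, hw4] at h
    exact (h.l2 (c23 y)).l1 (b23 y))
  have e1323 : ∀ x y, Z f (O13 x) (O23 y) := fun x y => by
    have h := Z.ac hf (e1223 x (y ^ 2)) p23
    rwa [p23_O12, p23_O23, sq_sq] at h
  have e1313 : ∀ x y, Z f (O13 x) (O13 y) := fun x y => by
    have h := Z.ac hf (e1212 x y) p23
    rwa [p23_O12, p23_O12] at h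
  have e2323 : ∀ x y, Z f (O23 x) (O23 y) := fun x y => by
    have h := Z.ac hf (e1212 (x ^ 2) (y ^ 2)) p13
    rwa [p13_O12, p13_O12, sq_sq, sq_sq] at h
  have r : ∀ i : HS F, Z f i (T1 w) → Z f i (T2 w) → Z f i (T3 w) → (∀ s, Z f i (O12 s)) → (∀ s, Z f i (O13 s)) →
      (∀ s, Z f i (O23 s)) → ∀ y, Z f i y := fun i g1 g2 g3 g4 g5 g6 y =>
    eq_zero_of w hw (f i) (TT_of w hw hf T1 (T1_cases w hw) g1) (TT_of w hw hf T2 (T2_cases w hw) g2)
      (TT_of w hw hf T3 (T3_cases w hw) g3) g4 g5 g6 y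
  have sy : ∀ {x y : HS F}, Z f x y → Z f y x := fun h => Z.symm hf h
  have r1 := r (T1 w) (Z.self hf _) A1 A2 b12 b13 b23
  have r2 := r (T2 w) (sy A1) (Z.self hf _) A3 c12 c13 c23
  have r3 := r (T3 w) (sy A2) (sy A3) (Z.self hf _) d12 d13 d23
  have r4 := fun s => r (O12 s) (sy (b12 s)) (sy (c12 s)) (sy (d12 s)) (e1212 s) (e1213 s) (e1223 s)
  have r5 := fun s => r (O13 s) (sy (b13 s)) (sy (c13 s)) (sy (d13 s)) (fun t => sy (e1213 t s)) (e1313 s) (e1323 s)
  have r6 := fun s => r (O23 s) (sy (b23 s)) (sy (c23 s)) (sy (d23 s)) (fun t => sy (e1223 t s))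
    (fun t => sy (e1323 t s)) (e2323 s)
  have e : Z f x y := sy (r y (sy (r1 y)) (sy (r2 y)) (sy (r3 y)) (fun s => sy (r4 s y)) (fun s => sy (r5 s y))
    (fun s => sy (r6 s y)) x)
  have e' : f x y = 0 := e
  rw [e']; rfl

end

end Cfsg.Agent.H616.L34
end

-- part: H616/L34/Iso
section
/-!
# S5917, row M9 (helper616): the space of brackets of a submodule of type 9 is totally isotropic
-/

set_option autoImplicit false
set_option linter.unusedSectionVars false

namespace Cfsg.Agent.H616.L34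

open Matrix Cfsg.Agent.H691.L34 Cfsg.Agent.H204.L34 Cfsg.Agent.H288.L34 Module

section

variable {F : Type} [Field F]

theorem it_it (g : G3 F) : it (it g) = g := by
  apply Subtype.ext
  show ((it g)⁻¹ : G3 F).1.transpose = g.1
  rw [← map_inv]
  show (((g⁻¹)⁻¹ : G3 F).1.transpose).transpose = g.1
  rw [inv_inv, Matrix.transpose_transpose]

theorem tw_tw (b : Bool) (g : G3 F) : tw b (tw b g) = g := by
  cases b
  · rfl
  · exact it_it g

theorem four_of [Fintype F] (hF : Fintype.card F = 4) : Four F := by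
  refine ⟨?_, fun x => ?_⟩
  · have h : ((Fintype.card F : ℕ) : F) = 0 := FiniteField.cast_card_eq_zero F
    rw [hF] at h
    have h' : (2 : F) * 2 = 0 := by
      have e : (2 : F) * 2 = ((4 : ℕ) : F) := by push_cast; ring
      rw [e]; exact h
    exact mul_self_eq_zero.1 h'
  · have h := FiniteField.pow_card x
    rwa [hF] at h

theorem exists_w [Fintype F] (hF : Fintype.card F = 4) : ∃ w : F, w ^ 2 + w + 1 = 0 := by
  classical
  have := four_of hF
  have h2 : (2 : F) = 0 := two'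
  have h : ∃ w : F, w ≠ 0 ∧ w ≠ 1 := by
    by_contra hcon
    push Not at hcon
    have h1 : (Finset.univ : Finset F) ⊆ {0, 1} := fun x _ => by
      by_cases hx : x = 0
      · simp [hx]
      · simp [hcon x hx]
    have h3 := Finset.card_le_card h1
    rw [Finset.card_univ, hF] at h3
    have h4 : ({0, 1} : Finset F).card ≤ 2 := Finset.card_le_two
    omega
  obtain ⟨w, h0, h1⟩ := h
  refine ⟨w, ?_⟩
  have h4 := four' w
  have e : w * ((w - 1) * (w ^ 2 + w + 1)) = 0 := by linear_combination h4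
  rcases mul_eq_zero.1 e with h | h
  · exact absurd h h0
  rcases mul_eq_zero.1 h with h | h
  · exact absurd (by linear_combination h) h1
  · exact h

end

section

variable {F : Type} [Field F] {V : Type} [AddCommGroup V] [Module (ZMod 2) V]
  {ρ : Representation (ZMod 2) (G3 F) V}

/-- the fourlinear form of a module of type 9 -/
def f4 [Four F] (β : V →ₗ[ZMod 2] V →ₗ[ZMod 2] V) (B : LinearMap.BilinForm (ZMod 2) V) (ψ : HS F →+ V) :
    HS F →+ HS F →+ HS F →+ HS F →+ ZMod 2 :=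
  AddMonoidHom.mk' (fun x => AddMonoidHom.mk' (fun y => AddMonoidHom.mk' (fun z => AddMonoidHom.mk' (fun t =>
    B (β (ψ x) (ψ y)) (β (ψ z) (ψ t))) (by intro a b; simp only [map_add]))
    (by intro a b; ext t; simp only [AddMonoidHom.mk'_apply, AddMonoidHom.add_apply, map_add, LinearMap.add_apply]))
    (by intro a b; ext z t; simp only [AddMonoidHom.mk'_apply, AddMonoidHom.add_apply, map_add, LinearMap.add_apply]))
    (by intro a b; ext y z t; simp only [AddMonoidHom.mk'_apply, AddMonoidHom.add_apply, map_add, LinearMap.add_apply])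

theorem f4_apply [Four F] (β : V →ₗ[ZMod 2] V →ₗ[ZMod 2] V) (B : LinearMap.BilinForm (ZMod 2) V) (ψ : HS F →+ V)
    (x y z t : HS F) : f4 β B ψ x y z t = B (β (ψ x) (ψ y)) (β (ψ z) (ψ t)) := rfl

theorem iso_four [Fintype F] (hF : Fintype.card F = 4) {β : V →ₗ[ZMod 2] V →ₗ[ZMod 2] V} (hβ : Brk ρ β)
    (B : LinearMap.BilinForm (ZMod 2) V) (hi : ∀ g x y, B (ρ g x) (ρ g y) = B x y) {b : Bool}
    {W : Submodule (ZMod 2) V} (hW : IsNine ρ b W) {x y z t : V} (hx : x ∈ W) (hy : y ∈ W) (hz : z ∈ W) (ht : t ∈ W) :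
    B (β x y) (β z t) = 0 := by
  have := four_of hF
  obtain ⟨w, hw⟩ := exists_w hF
  obtain ⟨φ, h1, h2, h3, h4⟩ := hW
  let ψ : HS F →+ V := AddMonoidHom.mk' (fun X => φ X.1) (fun X Y => h1 X.1 Y.1 X.2 Y.2)
  have hψ : ∀ X : HS F, ψ X = φ X.1 := fun X => rfl
  have hg : ∀ (g : G3 F) (X : HS F), ψ (ac g X) = ρ (tw b g) (ψ X) := fun g X => by
    rw [hψ, hψ, h4 _ _ X.2, tw_tw]; rfl
  have hq : Qf (f4 β B ψ) := by
    refine ⟨fun g x y z t => ?_, fun x z t => ?_, fun x y z => ?_⟩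
    · rw [f4_apply, f4_apply, hg, hg, hg, hg, ← hβ.inv, ← hβ.inv, hi]
    · rw [f4_apply, hβ.alt, map_zero, LinearMap.zero_apply]
    · rw [f4_apply, hβ.alt, map_zero]
  have hm : ∀ v ∈ W, ∃ X : HS F, ψ X = v := fun v hv => by
    obtain ⟨X, hX, h⟩ := (h3 v).1 hv
    exact ⟨⟨X, hX⟩, h⟩
  obtain ⟨X, rfl⟩ := hm x hx
  obtain ⟨Y, rfl⟩ := hm y hy
  obtain ⟨Z, rfl⟩ := hm z hz
  obtain ⟨T, rfl⟩ := hm t ht
  exact form_zero w hw hq X Y Z T

/-- the space of brackets is totally isotropic -/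
theorem bsp_iso [Fintype F] (hF : Fintype.card F = 4) {β : V →ₗ[ZMod 2] V →ₗ[ZMod 2] V} (hβ : Brk ρ β)
    (B : LinearMap.BilinForm (ZMod 2) V) (hi : ∀ g x y, B (ρ g x) (ρ g y) = B x y) {b : Bool}
    {W : Submodule (ZMod 2) V} (hW : IsNine ρ b W) : bsp β W ≤ B.orthogonal (bsp β W) := by
  have h1 : ∀ z ∈ W, ∀ t ∈ W, ∀ n ∈ bsp β W, B n (β z t) = 0 := by
    intro z hz t ht n hn
    refine Submodule.span_induction (p := fun n _ => B n (β z t) = 0) ?_ ?_ ?_ ?_ hn
    · rintro n ⟨x, hx, y, hy, rfl⟩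
      exact iso_four hF hβ B hi hW hx hy hz ht
    · rw [map_zero, LinearMap.zero_apply]
    · intro a c _ _ ha hc
      rw [map_add, LinearMap.add_apply, ha, hc, add_zero]
    · intro r a _ ha
      rw [map_smul, LinearMap.smul_apply, ha, smul_zero]
  refine Submodule.span_le.2 ?_
  rintro v ⟨z, hz, t, ht, rfl⟩
  show β z t ∈ B.orthogonal (bsp β W)
  rw [LinearMap.BilinForm.mem_orthogonal_iff]
  exact fun n hn => h1 z hz t ht n hn

end

end Cfsg.Agent.H616.L34
end

private theorem dce_daa6f55f0f7e : _root_.True := by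
  try have : _root_.True := by simp only [_root_.Cfsg.Agent.H616.L34.u13.eq_1]
  try have : _root_.True := by simp only [_root_.Cfsg.Agent.H616.L34.u21.eq_1]
  try have : _root_.True := by simp only [_root_.Cfsg.Agent.H616.L34.tor.eq_1]
  try have : _root_.True := by simp only [_root_.Cfsg.Agent.H616.L34.p12.congr_simp]
  try have : _root_.True := by simp only [_root_.Cfsg.Agent.H616.L34.p23.congr_simp]
  try have : _root_.True := by simp only [_root_.Cfsg.Agent.H616.L34.Z.eq_1]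
  try have : _root_.True := by simp only [_root_.Cfsg.Agent.H616.L34.p12.eq_1]
  try have : _root_.True := by simp only [_root_.Cfsg.Agent.H616.L34.u23.eq_1]
  try have : _root_.True := by simp only [_root_.Cfsg.Agent.H616.L34.p13.congr_simp]
  try have : _root_.True := by simp only [_root_.Cfsg.Agent.H616.L34.tor.congr_simp]
  try have : _root_.True := by simp only [_root_.Cfsg.Agent.H616.L34.p13.eq_1]
  try have : _root_.True := by simp only [_root_.Cfsg.Agent.H616.L34.u12.eq_1]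
  try have : _root_.True := by simp only [_root_.Cfsg.Agent.H616.L34.p23.eq_1]
  exact _root_.True.intro
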